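import Cfsg.Agent.H668.Five.Rows
import Cfsg.Agent.H346.CoxA

/-!
# S4874: `Good` from Coxeter relations
-/

set_option autoImplicit false

namespace Cfsg.Agent.H183.Five

open Cfsg Cfsg.Agent.H668.Five Equiv
open Cfsg.Agent.H634.ZJ

/-- `NN` from a commuting image of a group without normal `2`-complement -/
theorem NN_of_hom {G X : Type*} [Group G] [Finite G] [Group X] [Finite X] (φ : X →* G)
    (hφ : Function.Injective φ) (hX : ¬ HasNormalPComplement 2 X) {v : G} (h : ∀ x, φ x * v = v * φ x) :
    NN v := by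
  intro hC
  apply hX
  let f : X →* ↥(Subgroup.centralizer ({v} : Set G)) :=
    φ.codRestrict _ (fun x => Subgroup.mem_centralizer_singleton_iff.2 (h x))
  exact hasNormalPComplement_of_injective (p := 2) f
    (fun a b hab => hφ (congrArg Subtype.val hab)) hC

/-- the Klein four-group -/
def V4 : Subgroup (alternatingGroup (Fin 4)) where
  carrier := {x | x * x = 1}
  mul_mem' := by
    have h : ∀ x y : alternatingGroup (Fin 4), x * x = 1 → y * y = 1 → (x * y) * (x * y) = 1 := by
      decide +kernel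
    exact fun {x y} hx hy => h x y hx hy
  one_mem' := mul_one 1
  inv_mem' := by
    intro x hx
    show x⁻¹ * x⁻¹ = 1
    rw [← mul_inv_rev, show x * x = 1 from hx, inv_one]

theorem nc_four : ¬ HasNormalPComplement 2 (alternatingGroup (Fin 4)) := by
  have hex : ∃ h a : alternatingGroup (Fin 4), h ^ 3 = 1 ∧ a * a = 1 ∧ h * a ≠ a * h := by decide +kernel
  obtain ⟨h, a, hh, ha, hne⟩ := hex
  refine not_compl_of_act V4 (fun x => ⟨1, Subtype.ext ?_⟩) h ?_ ?_ (a := a) ha hne
  · show (x : alternatingGroup (Fin 4)) ^ (2 ^ 1) = 1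
    rw [pow_one, pow_two]
    exact x.2
  · have h1 : orderOf h ∣ 3 := orderOf_dvd_of_pow_eq_one hh
    exact Odd.of_dvd_nat (by decide) h1
  · intro b hb
    show h * b * h⁻¹ * (h * b * h⁻¹) = 1
    have hb' : b * b = 1 := hb
    have : h * b * h⁻¹ * (h * b * h⁻¹) = h * (b * b) * h⁻¹ := by group
    rw [this, hb', mul_one, mul_inv_cancel]

theorem four_key : ∀ x : Perm (Fin 4), x ≠ 1 → ∃ y z : Perm (Fin 4),
    (y * x * y⁻¹) * (z * x * z⁻¹) = swap 0 1 * swap 2 3 := by decide +kernel

theorem inj_four {G : Type*} [Group G] (f : Perm (Fin 4) →* G)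
    (h : f (swap 0 1) ≠ f (swap 2 3)) : Function.Injective f := by
  rw [injective_iff_map_eq_one]
  intro x hx
  by_contra hx1
  obtain ⟨y, z, hyz⟩ := four_key x hx1
  have h1 := congrArg f hyz
  simp only [map_mul, map_inv, hx, mul_one, mul_inv_cancel] at h1
  apply h
  have h2 : f (swap 2 3) * f (swap 2 3) = 1 := by rw [← map_mul, swap_mul_self, map_one]
  calc f (swap 0 1) = f (swap 0 1) * (f (swap 2 3) * f (swap 2 3)) := by rw [h2, mul_one]
    _ = f (swap 2 3) := by rw [← mul_assoc, ← h1, one_mul]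

/-- the homomorphism attached to three elements with the Coxeter relations of type `A₃` -/
theorem exists_four {G : Type*} [Group G] (a b c : G) (ha : a * a = 1) (hb : b * b = 1) (hc : c * c = 1)
    (hab : (a * b) ^ 3 = 1) (hbc : (b * c) ^ 3 = 1) (hac : (a * c) ^ 2 = 1) (hne : a ≠ c) :
    ∃ f : Perm (Fin 4) →* G, Function.Injective f ∧ f (swap 0 1) = a ∧ f (swap 1 2) = b ∧ f (swap 2 3) = c := by
  have hbr : ∀ x y : G, x * x = 1 → y * y = 1 → (x * y) ^ 3 = 1 → x * y * x = y * x * y := by
    intro x y hx hy h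
    have hx' : x⁻¹ = x := inv_eq_of_mul_eq_one_right hx
    have hy' : y⁻¹ = y := inv_eq_of_mul_eq_one_right hy
    have h1 : (x * y * x) * (y * x * y) = 1 := by
      rw [← h]
      simp only [pow_succ, pow_zero, one_mul, mul_assoc]
    have h2 : x * y * x = (y * x * y)⁻¹ := eq_inv_of_mul_eq_one_left h1
    rw [h2, mul_inv_rev, mul_inv_rev, hx', hy', mul_assoc]
  have hcm : a * c = c * a := by
    have h1 : (a * c) * (a * c) = 1 := by rw [← pow_two, hac]
    have h2 : a * c = (a * c)⁻¹ := eq_inv_of_mul_eq_one_left h1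
    rw [h2, mul_inv_rev, inv_eq_of_mul_eq_one_right hc, inv_eq_of_mul_eq_one_right ha]
  let s : ℕ → G := fun i => if i = 0 then a else if i = 1 then b else c
  have hrel : H346.CoxA.Rel 3 s := by
    refine ⟨?_, ?_, ?_⟩
    · intro i hi
      interval_cases i
      · exact ha
      · exact hb
      · exact hc
    · intro i hi
      have : i < 2 := by omega
      interval_cases i
      · exact hbr a b ha hb hab
      · exact hbr b c hb hc hbc
    · intro i j hij hj
      have h1 : i = 0 ∧ j = 2 := by omega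
      obtain ⟨rfl, rfl⟩ := h1
      exact hcm
  obtain ⟨f, hf⟩ := H346.CoxA.exists_hom 3 s hrel
  have h0 : f (swap 0 1) = a := hf 0
  have h1 : f (swap 1 2) = b := hf 1
  have h2 : f (swap 2 3) = c := hf 2
  exact ⟨f, inj_four f (by rw [h0, h2]; exact hne), h0, h1, h2⟩

theorem comm_of {G : Type*} [Group G] (f : Perm (Fin 4) →* G) (x : G) (h0 : f (swap 0 1) * x = x * f (swap 0 1))
    (h1 : f (swap 1 2) * x = x * f (swap 1 2)) (h2 : f (swap 2 3) * x = x * f (swap 2 3)) (p : Perm (Fin 4)) :
    f p * x = x * f p := by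
  let S : Submonoid (Perm (Fin 4)) :=
    { carrier := {p | f p * x = x * f p}
      mul_mem' := fun {p r} hp hr => by
        show f (p * r) * x = x * f (p * r)
        rw [map_mul, mul_assoc, show f r * x = x * f r from hr, ← mul_assoc, show f p * x = x * f p from hp, mul_assoc]
      one_mem' := by
        show f 1 * x = x * f 1
        rw [map_one, one_mul, mul_one] }
  have h3 : Submonoid.closure (Set.range fun i : Fin 3 => swap i.castSucc i.succ) ≤ S := by
    rw [Submonoid.closure_le]
    rintro _ ⟨i, rfl⟩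
    fin_cases i
    · exact h0
    · exact h1
    · exact h2
  rw [Equiv.Perm.mclosure_swap_castSucc_succ] at h3
  exact h3 (Submonoid.mem_top p)

/-- two commuting copies of the symmetric group of degree four -/
theorem comm_four {G : Type*} [Group G] (f g : Perm (Fin 4) →* G)
    (h : ∀ x ∈ [swap (0 : Fin 4) 1, swap 1 2, swap 2 3], ∀ y ∈ [swap (0 : Fin 4) 1, swap 1 2, swap 2 3],
      f x * g y = g y * f x) (p r : Perm (Fin 4)) : f p * g r = g r * f p := by
  have h1 : ∀ y ∈ [swap (0 : Fin 4) 1, swap 1 2, swap 2 3], ∀ p, f p * g y = g y * f p := fun y hy p =>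
    comm_of f (g y) (h _ (by simp) y hy) (h _ (by simp) y hy) (h _ (by simp) y hy) p
  exact (comm_of g (f p) (h1 _ (by simp) p).symm (h1 _ (by simp) p).symm (h1 _ (by simp) p).symm r).symm

/-- a 4-cycle -/
theorem exists_cyc : ∃ v : Perm (Fin 4), v = swap 0 1 * swap 1 2 * swap 2 3 ∧ v ^ 4 = 1 ∧ v ^ 2 ≠ 1 := by
  refine ⟨_, rfl, ?_, ?_⟩ <;> decide +kernel

/-- `x ≠ y` collapses: the basic step -/
theorem step {G : Type*} [Group G] {x y z : G} (hz : z * z = 1) (hxy : x = y) (hy : y * y = 1)
    (hxz : (x * z) ^ 2 = 1) (hyz : (y * z) ^ 3 = 1) : y = z := by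
  subst hxy
  have h1 : x * z = 1 := by
    rw [pow_succ, hxz, one_mul] at hyz
    exact hyz
  calc x = x * (z * z) := by rw [hz, mul_one]
    _ = z := by rw [← mul_assoc, h1, one_mul]

end Cfsg.Agent.H183.Five
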