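import Cfsg.Agent.H183.Five.Cox
import Cfsg.Agent.NotCT.Orders

/-!
# S4874: the rows B and M
-/

set_option autoImplicit false

namespace Cfsg.Agent.H183.Five

open Cfsg Cfsg.Agent.H668.Five Equiv Cfsg.Spor
open scoped commutatorElement

section B

/-- the generators -/
abbrev tb (g : BabyMonster.Gen) : BabyMonster := PresentedGroup.of g

theorem memB (x : BabyMonster.Gen) : x ∈ coxNodes BabyMonster.edges := by
  cases x <;> decide

theorem relB (x y : BabyMonster.Gen) : (tb x * tb y) ^ coxLabel BabyMonster.edges x y = 1 := by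
  have h := PresentedGroup.one_of_mem (rels := coxRelators BabyMonster.edges ∪ {r | r ∈ BabyMonster.extra})
    (Or.inl ⟨x, memB x, y, memB y, rfl⟩)
  rwa [map_pow, map_mul] at h

theorem sqB (x : BabyMonster.Gen) : tb x * tb x = 1 := by
  have h := relB x x
  rw [show coxLabel BabyMonster.edges x x = 1 from if_pos rfl, pow_one] at h
  exact h

theorem r3B {x y : BabyMonster.Gen} (h : coxLabel BabyMonster.edges x y = 3) : (tb x * tb y) ^ 3 = 1 := by
  rw [← h]; exact relB x y

theorem r2B {x y : BabyMonster.Gen} (h : coxLabel BabyMonster.edges x y = 2) : (tb x * tb y) ^ 2 = 1 := by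
  rw [← h]; exact relB x y

theorem stepB {x y z : BabyMonster.Gen} (hxy : tb x = tb y) (h2 : coxLabel BabyMonster.edges x z = 2)
    (h3 : coxLabel BabyMonster.edges y z = 3) : tb y = tb z :=
  step (sqB z) hxy (sqB y) (r2B h2) (r3B h3)

theorem commB {x y : BabyMonster.Gen} (h : coxLabel BabyMonster.edges x y = 2) : tb x * tb y = tb y * tb x := by
  have h1 := r2B h
  have h2 : tb x * tb y = (tb x * tb y)⁻¹ := eq_inv_of_mul_eq_one_left (by rw [← pow_two, h1])
  rw [h2, mul_inv_rev, inv_eq_of_mul_eq_one_right (sqB x), inv_eq_of_mul_eq_one_right (sqB y)]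

open BabyMonster.Gen in
theorem allB (h : tb t1 = tb t3) (x : BabyMonster.Gen) : tb x = tb t1 := by
  have h34 : tb t3 = tb t4 := stepB h (by decide) (by decide)
  have h45 : tb t4 = tb t5 := stepB h34 (by decide) (by decide)
  have h56 : tb t5 = tb t6 := stepB h45 (by decide) (by decide)
  have h67 : tb t6 = tb t7 := stepB h56 (by decide) (by decide)
  have h78 : tb t7 = tb t8 := stepB h67 (by decide) (by decide)
  have h59 : tb t5 = tb t9 := stepB h45 (by decide) (by decide)
  have h910 : tb t9 = tb t10 := stepB h59 (by decide) (by decide)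
  have h1011 : tb t10 = tb t11 := stepB h910 (by decide) (by decide)
  have h32 : tb t3 = tb t2 := stepB h34.symm (by decide) (by decide)
  cases x
  · rfl
  · rw [← h32, h]
  · exact h.symm
  · rw [← h34, h]
  · rw [← h45, ← h34, h]
  · rw [← h56, ← h45, ← h34, h]
  · rw [← h67, ← h56, ← h45, ← h34, h]
  · rw [← h78, ← h67, ← h56, ← h45, ← h34, h]
  · rw [← h59, ← h45, ← h34, h]
  · rw [← h910, ← h59, ← h45, ← h34, h]
  · rw [← h1011, ← h910, ← h59, ← h45, ← h34, h]

theorem neB : tb .t1 ≠ tb .t3 := by
  intro h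
  have hall := allB h
  have h1 : ∀ g : BabyMonster, g ∈ Subgroup.zpowers (tb .t1) := by
    intro g
    have h2 : g ∈ (⊤ : Subgroup BabyMonster) := Subgroup.mem_top g
    rw [← PresentedGroup.closure_range_of] at h2
    refine (Subgroup.closure_le _).2 ?_ h2
    rintro _ ⟨x, rfl⟩
    rw [SetLike.mem_coe]
    have h3 := hall x
    rw [show (PresentedGroup.of x : BabyMonster) = tb x from rfl, h3]
    exact Subgroup.mem_zpowers _
  have h2 : Nat.card BabyMonster ≤ 2 := by
    have h3 : (⊤ : Subgroup BabyMonster) = Subgroup.zpowers (tb .t1) := by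
      rw [eq_comm, eq_top_iff]
      exact fun g _ => h1 g
    have h4 : Nat.card BabyMonster = Nat.card (⊤ : Subgroup BabyMonster) := Subgroup.card_top.symm
    rw [h4, h3, Nat.card_zpowers]
    exact Nat.le_of_dvd (by norm_num) (orderOf_dvd_of_pow_eq_one (by rw [pow_two]; exact sqB _))
  rw [NotCT.Orders.b ⟨MulEquiv.refl _⟩] at h2
  norm_num at h2

open BabyMonster.Gen in
theorem neB' : tb t5 ≠ tb t7 := by
  intro h
  have h78 : tb t7 = tb t8 := stepB h (by decide) (by decide)
  have h76 : tb t7 = tb t6 := stepB h78.symm (by decide) (by decide)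
  have h65 : tb t6 = tb t5 := h76.symm.trans h.symm
  have h54 : tb t5 = tb t4 := stepB h65 (by decide) (by decide)
  have h43 : tb t4 = tb t3 := stepB h54 (by decide) (by decide)
  have h32 : tb t3 = tb t2 := stepB h43 (by decide) (by decide)
  have h21 : tb t2 = tb t1 := stepB h32 (by decide) (by decide)
  exact neB (h32.trans h21).symm

theorem finite_B : Finite BabyMonster :=
  Nat.finite_of_card_ne_zero (by rw [NotCT.Orders.b ⟨MulEquiv.refl _⟩]; norm_num)

open BabyMonster.Gen in
theorem good_B : Good BabyMonster := by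
  have hfin := finite_B
  obtain ⟨f, hf, hf0, hf1, hf2⟩ := exists_four (tb t1) (tb t2) (tb t3) (sqB _) (sqB _) (sqB _) (r3B (by decide))
    (r3B (by decide)) (r2B (by decide)) neB
  obtain ⟨g, hg, hg0, hg1, hg2⟩ := exists_four (tb t5) (tb t6) (tb t7) (sqB _) (sqB _) (sqB _) (r3B (by decide))
    (r3B (by decide)) (r2B (by decide)) neB'
  have hc : ∀ p r, g p * f r = f r * g p := comm_four g f (by
    intro x hx y hy
    simp only [List.mem_cons, List.not_mem_nil, or_false] at hx hy
    rcases hx with rfl | rfl | rfl <;> rcases hy with rfl | rfl | rfl <;>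
      simp only [hf0, hf1, hf2, hg0, hg1, hg2] <;> exact commB (by decide))
  obtain ⟨v, -, hv4, hv2⟩ := exists_cyc
  refine Or.inl ⟨f v, ?_, NN_of_hom (g.comp (alternatingGroup (Fin 4)).subtype)
    (hg.comp Subtype.val_injective) nc_four fun x => hc _ _⟩
  rw [orderOf_injective f hf]
  exact orderOf_eq_prime_pow (p := 2) (n := 1) (by rw [pow_one]; exact hv2) hv4

/-- **The row B.** -/
theorem row_b {S : Type*} [Group S] [Finite S] (h : Spor.IsoB S) : Row S := by
  obtain ⟨e⟩ := h
  have hfin := finite_B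
  exact Or.inl (good_B.map e.symm.toMonoidHom e.symm.injective)

end B

section M

/-- the generators -/
abbrev ta (g : Bimonster.Gen) : Bimonster := PresentedGroup.of g

theorem memM (x : Bimonster.Gen) : x ∈ coxNodes Bimonster.edges := by
  cases x <;> decide

theorem relM (x y : Bimonster.Gen) : (ta x * ta y) ^ coxLabel Bimonster.edges x y = 1 := by
  have h := PresentedGroup.one_of_mem (rels := coxRelators Bimonster.edges ∪ {r | r ∈ Bimonster.extra})
    (Or.inl ⟨x, memM x, y, memM y, rfl⟩)
  rwa [map_pow, map_mul] at h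

theorem sqM (x : Bimonster.Gen) : ta x * ta x = 1 := by
  have h := relM x x
  rw [show coxLabel Bimonster.edges x x = 1 from if_pos rfl, pow_one] at h
  exact h

theorem r3M {x y : Bimonster.Gen} (h : coxLabel Bimonster.edges x y = 3) : (ta x * ta y) ^ 3 = 1 := by
  rw [← h]; exact relM x y

theorem r2M {x y : Bimonster.Gen} (h : coxLabel Bimonster.edges x y = 2) : (ta x * ta y) ^ 2 = 1 := by
  rw [← h]; exact relM x y

theorem stepM {x y z : Bimonster.Gen} (hxy : ta x = ta y) (h2 : coxLabel Bimonster.edges x z = 2)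
    (h3 : coxLabel Bimonster.edges y z = 3) : ta y = ta z :=
  step (sqM z) hxy (sqM y) (r2M h2) (r3M h3)

theorem commM {x y : Bimonster.Gen} (h : coxLabel Bimonster.edges x y = 2) : ta x * ta y = ta y * ta x := by
  have h1 := r2M h
  have h2 : ta x * ta y = (ta x * ta y)⁻¹ := eq_inv_of_mul_eq_one_left (by rw [← pow_two, h1])
  rw [h2, mul_inv_rev, inv_eq_of_mul_eq_one_right (sqM x), inv_eq_of_mul_eq_one_right (sqM y)]

open Bimonster.Gen in
theorem allM (h : ta c1 = ta e1) (x : Bimonster.Gen) : ta x = ta a := by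
  have ef1 : ta e1 = ta f1 := stepM h (by decide) (by decide)
  have ed1 : ta e1 = ta d1 := stepM ef1.symm (by decide) (by decide)
  have dc1 : ta d1 = ta c1 := ed1.symm.trans h.symm
  have cb1 : ta c1 = ta b1 := stepM dc1 (by decide) (by decide)
  have ba1 : ta b1 = ta a := stepM cb1 (by decide) (by decide)
  have ab2 : ta a = ta b2 := stepM ba1 (by decide) (by decide)
  have bc2 : ta b2 = ta c2 := stepM ab2 (by decide) (by decide)
  have cd2 : ta c2 = ta d2 := stepM bc2 (by decide) (by decide)
  have de2 : ta d2 = ta e2 := stepM cd2 (by decide) (by decide)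
  have ef2 : ta e2 = ta f2 := stepM de2 (by decide) (by decide)
  have ab3 : ta a = ta b3 := stepM ba1 (by decide) (by decide)
  have bc3 : ta b3 = ta c3 := stepM ab3 (by decide) (by decide)
  have cd3 : ta c3 = ta d3 := stepM bc3 (by decide) (by decide)
  have de3 : ta d3 = ta e3 := stepM cd3 (by decide) (by decide)
  have ef3 : ta e3 = ta f3 := stepM de3 (by decide) (by decide)
  cases x
  · rfl
  · exact ba1
  · exact cb1.trans ba1
  · exact dc1.trans (cb1.trans ba1)
  · exact ed1.trans (dc1.trans (cb1.trans ba1))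
  · exact ef1.symm.trans (ed1.trans (dc1.trans (cb1.trans ba1)))
  · exact ab2.symm
  · exact (ab2.trans bc2).symm
  · exact (ab2.trans (bc2.trans cd2)).symm
  · exact (ab2.trans (bc2.trans (cd2.trans de2))).symm
  · exact (ab2.trans (bc2.trans (cd2.trans (de2.trans ef2)))).symm
  · exact ab3.symm
  · exact (ab3.trans bc3).symm
  · exact (ab3.trans (bc3.trans cd3)).symm
  · exact (ab3.trans (bc3.trans (cd3.trans de3))).symm
  · exact (ab3.trans (bc3.trans (cd3.trans (de3.trans ef3)))).symm

theorem neM : ta .c1 ≠ ta .e1 := by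
  intro h
  have hall := allM h
  have h1 : ∀ g : Bimonster, g ∈ Subgroup.zpowers (ta .a) := by
    intro g
    have h2 : g ∈ (⊤ : Subgroup Bimonster) := Subgroup.mem_top g
    rw [← PresentedGroup.closure_range_of] at h2
    refine (Subgroup.closure_le _).2 ?_ h2
    rintro _ ⟨x, rfl⟩
    rw [SetLike.mem_coe]
    have h3 := hall x
    rw [show (PresentedGroup.of x : Bimonster) = ta x from rfl, h3]
    exact Subgroup.mem_zpowers _
  have hcomm : ∀ x y : Bimonster, x * y = y * x := by
    intro x y
    obtain ⟨i, rfl⟩ := Subgroup.mem_zpowers_iff.1 (h1 x)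
    obtain ⟨j, rfl⟩ := Subgroup.mem_zpowers_iff.1 (h1 y)
    rw [← zpow_add, ← zpow_add, add_comm]
  have hM : ∀ x : Monster, x = 1 := by
    intro x
    have h2 : (x : Bimonster) ∈ commutator Bimonster := x.2.2
    have h3 : commutator Bimonster ≤ ⊥ := by
      rw [commutator_def, Subgroup.commutator_le]
      intro g _ k _
      rw [Subgroup.mem_bot, commutatorElement_def, hcomm g k]
      group
    exact Subtype.ext (Subgroup.mem_bot.1 (h3 h2))
  have h2 : Nat.card Monster = 1 := by
    have : Subsingleton Monster := ⟨fun x y => (hM x).trans (hM y).symm⟩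
    exact Nat.card_of_subsingleton 1
  rw [NotCT.Orders.m ⟨MulEquiv.refl _⟩] at h2
  norm_num at h2

open Bimonster.Gen in
theorem neM' : ta c3 ≠ ta e3 := by
  intro h
  have ef3 : ta e3 = ta f3 := stepM h (by decide) (by decide)
  have ed3 : ta e3 = ta d3 := stepM ef3.symm (by decide) (by decide)
  have dc3 : ta d3 = ta c3 := ed3.symm.trans h.symm
  have cb3 : ta c3 = ta b3 := stepM dc3 (by decide) (by decide)
  have ba3 : ta b3 = ta a := stepM cb3 (by decide) (by decide)
  have ab1 : ta a = ta b1 := stepM ba3 (by decide) (by decide)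
  have bc1 : ta b1 = ta c1 := stepM ab1 (by decide) (by decide)
  have cd1 : ta c1 = ta d1 := stepM bc1 (by decide) (by decide)
  have de1 : ta d1 = ta e1 := stepM cd1 (by decide) (by decide)
  exact neM (cd1.trans de1)

theorem mem_comm_adj {x y : Bimonster.Gen} (h : coxLabel Bimonster.edges x y = 3) :
    ta x * ta y ∈ commutator Bimonster := by
  have h3 := r3M h
  have hx' : (ta x)⁻¹ = ta x := inv_eq_of_mul_eq_one_right (sqM x)
  have hy' : (ta y)⁻¹ = ta y := inv_eq_of_mul_eq_one_right (sqM y)
  have h4 : ⁅ta x, ta y⁆ ∈ commutator Bimonster :=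
    Subgroup.commutator_mem_commutator (Subgroup.mem_top _) (Subgroup.mem_top _)
  have h5 : ⁅ta x, ta y⁆ = (ta x * ta y) ^ 2 := by
    rw [commutatorElement_def, hx', hy', pow_two, mul_assoc (ta x * ta y)]
  have h6 : ta x * ta y = ⁅ta x, ta y⁆⁻¹ := by
    rw [h5]
    exact eq_inv_of_mul_eq_one_right (by rw [← pow_succ, h3])
  rw [h6]
  exact Subgroup.inv_mem _ h4

theorem alt_comm : ∀ p : alternatingGroup (Fin 4), ∃ x y : Perm (Fin 4), (p : Perm (Fin 4)) = x * y * x⁻¹ * y⁻¹ := by
  decide +kernel

theorem mem_comm_of_alt (f : Perm (Fin 4) →* Bimonster) (p : alternatingGroup (Fin 4)) :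
    f p ∈ commutator Bimonster := by
  obtain ⟨x, y, h⟩ := alt_comm p
  rw [h, map_mul, map_mul, map_mul, map_inv, map_inv]
  exact Subgroup.commutator_mem_commutator (Subgroup.mem_top _) (Subgroup.mem_top _)

theorem finite_M : Finite Monster :=
  Nat.finite_of_card_ne_zero (by rw [NotCT.Orders.m ⟨MulEquiv.refl _⟩]; norm_num)

open Bimonster.Gen in
theorem good_M : Good Monster := by
  have hfin := finite_M
  obtain ⟨f, hf, hf0, hf1, hf2⟩ := exists_four (ta c1) (ta d1) (ta e1) (sqM _) (sqM _) (sqM _) (r3M (by decide))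
    (r3M (by decide)) (r2M (by decide)) neM
  obtain ⟨g, hg, hg0, hg1, hg2⟩ := exists_four (ta c3) (ta d3) (ta e3) (sqM _) (sqM _) (sqM _) (r3M (by decide))
    (r3M (by decide)) (r2M (by decide)) neM'
  have hc : ∀ p r, g p * f r = f r * g p := comm_four g f (by
    intro x hx y hy
    simp only [List.mem_cons, List.not_mem_nil, or_false] at hx hy
    rcases hx with rfl | rfl | rfl <;> rcases hy with rfl | rfl | rfl <;>
      simp only [hf0, hf1, hf2, hg0, hg1, hg2] <;> exact commM (by decide))
  have hfa : ∀ p, f p * ta a = ta a * f p := comm_of f (ta a) (by rw [hf0]; exact commM (by decide))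
    (by rw [hf1]; exact commM (by decide)) (by rw [hf2]; exact commM (by decide))
  have hga : ∀ p, g p * ta a = ta a * g p := comm_of g (ta a) (by rw [hg0]; exact commM (by decide))
    (by rw [hg1]; exact commM (by decide)) (by rw [hg2]; exact commM (by decide))
  have hfc : ∀ p, f p * ta c2 = ta c2 * f p := comm_of f (ta c2) (by rw [hf0]; exact commM (by decide))
    (by rw [hf1]; exact commM (by decide)) (by rw [hf2]; exact commM (by decide))
  have hgc : ∀ p, g p * ta c2 = ta c2 * g p := comm_of g (ta c2) (by rw [hg0]; exact commM (by decide))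
    (by rw [hg1]; exact commM (by decide)) (by rw [hg2]; exact commM (by decide))
  obtain ⟨v, hv, hv4, hv2⟩ := exists_cyc
  -- the element of order four
  have hvc : f v * ta c2 ∈ commutator Bimonster := by
    have h1 : f (v * swap 0 1) ∈ commutator Bimonster :=
      mem_comm_of_alt f ⟨v * swap 0 1, by rw [Equiv.Perm.mem_alternatingGroup, hv]; decide +kernel⟩
    have h2 : (ta c1 * ta b1) * (ta b1 * ta a) * (ta a * ta b2) * (ta b2 * ta c2) ∈ commutator Bimonster :=
      Subgroup.mul_mem _ (Subgroup.mul_mem _ (Subgroup.mul_mem _ (mem_comm_adj (by decide)) (mem_comm_adj (by decide)))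
        (mem_comm_adj (by decide))) (mem_comm_adj (by decide))
    have h3 : (ta c1 * ta b1) * (ta b1 * ta a) * (ta a * ta b2) * (ta b2 * ta c2) = ta c1 * ta c2 := by
      calc (ta c1 * ta b1) * (ta b1 * ta a) * (ta a * ta b2) * (ta b2 * ta c2)
          = ta c1 * (ta b1 * ta b1) * (ta a * ta a) * (ta b2 * ta b2) * ta c2 := by group
        _ = ta c1 * ta c2 := by rw [sqM, sqM, sqM, mul_one, mul_one, mul_one]
    rw [h3] at h2
    have h4 := Subgroup.mul_mem _ h1 h2
    rw [map_mul, hf0] at h4
    have h5 : f v * ta c1 * (ta c1 * ta c2) = f v * ta c2 := by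
      calc f v * ta c1 * (ta c1 * ta c2) = f v * (ta c1 * ta c1) * ta c2 := by group
        _ = f v * ta c2 := by rw [sqM, mul_one]
    rwa [h5] at h4
  have hva : f v * ta c2 ∈ Subgroup.centralizer ({ta a} : Set Bimonster) := by
    rw [Subgroup.mem_centralizer_singleton_iff]
    rw [mul_assoc, show ta c2 * ta a = ta a * ta c2 from commM (by decide), ← mul_assoc, hfa, mul_assoc]
  let w : Monster := ⟨f v * ta c2, hva, hvc⟩
  have hw2 : (f v * ta c2) ^ 2 = f (v ^ 2) := by
    rw [pow_two, pow_two, map_mul]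
    calc f v * ta c2 * (f v * ta c2) = f v * (ta c2 * f v) * ta c2 := by group
      _ = f v * f v := by rw [← hfc v]; rw [mul_assoc (f v) (f v * ta c2), mul_assoc (f v) (ta c2), sqM, mul_one]
  have hord : orderOf w = 4 := by
    refine orderOf_eq_prime_pow (p := 2) (n := 1) ?_ ?_
    · rw [pow_one]
      intro h
      have h1 : (f v * ta c2) ^ 2 = 1 := congrArg Subtype.val h
      rw [hw2] at h1
      exact hv2 (hf (by rw [h1, map_one]))
    · apply Subtype.ext
      show (f v * ta c2) ^ (2 ^ (1 + 1)) = 1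
      rw [show 2 ^ (1 + 1) = 2 * 2 from rfl, pow_mul, hw2, ← map_pow, ← pow_mul, hv4, map_one]
  -- the alternating group
  let φ : alternatingGroup (Fin 4) →* Monster :=
    (g.comp (alternatingGroup (Fin 4)).subtype).codRestrict _ (fun x =>
      ⟨Subgroup.mem_centralizer_singleton_iff.2 (hga x), mem_comm_of_alt g x⟩)
  have hφ : ∀ x, ((φ x : Monster) : Bimonster) = g x := fun x => rfl
  refine Or.inl ⟨w, hord, NN_of_hom φ ?_ nc_four fun x => Subtype.ext ?_⟩
  · intro x y hxy
    exact Subtype.ext (hg (congrArg Subtype.val hxy))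
  · show g x * (f v * ta c2) = f v * ta c2 * g x
    rw [← mul_assoc, hc, mul_assoc, hgc, mul_assoc]

/-- **The row M.** -/
theorem row_m {S : Type*} [Group S] [Finite S] (h : Spor.IsoM S) : Row S := by
  obtain ⟨e⟩ := h
  have hfin := finite_M
  exact Or.inl (good_M.map e.symm.toMonoidHom e.symm.injective)

end M

end Cfsg.Agent.H183.Five
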